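import Cfsg.Agent.H141.Rg.Defs

/-!
# Long root groups (S5714): abstract lemmas on `cj`, `Adj`, `Lev`, `LRG`
-/

set_option autoImplicit false

namespace Cfsg.Agent.H274.Rg

open Cfsg.Agent.H141.Rg

universe u w

variable {T : Type u} [Group T]

theorem mem_cj {X : Subgroup T} {g x : T} : x ∈ cj X g ↔ g⁻¹ * x * g ∈ X := by
  constructor
  · rintro ⟨y, hy, rfl⟩
    have : g⁻¹ * (g * y * g⁻¹) * g = y := by group
    show g⁻¹ * (g * y * g⁻¹) * g ∈ X
    rwa [this]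
  · intro h
    refine ⟨_, h, ?_⟩
    show g * (g⁻¹ * x * g) * g⁻¹ = x
    group

theorem conj_mem_cj {X : Subgroup T} {g x : T} (h : x ∈ X) : g * x * g⁻¹ ∈ cj X g := ⟨x, h, rfl⟩

theorem cj_cj (X : Subgroup T) (g h : T) : cj (cj X g) h = cj X (h * g) := by
  ext x
  rw [mem_cj, mem_cj, mem_cj]
  have : (h * g)⁻¹ * x * (h * g) = g⁻¹ * (h⁻¹ * x * h) * g := by group
  rw [this]

theorem cj_one (X : Subgroup T) : cj X 1 = X := by
  ext x; rw [mem_cj]; simp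

theorem cj_inj {X Y : Subgroup T} {g : T} (h : cj X g = cj Y g) : X = Y := by
  have := congrArg (fun Z => cj Z g⁻¹) h
  simpa only [cj_cj, inv_mul_cancel, cj_one] using this

theorem cj_inf (X Y : Subgroup T) (g : T) : cj (X ⊓ Y) g = cj X g ⊓ cj Y g := by
  ext x; simp only [mem_cj, Subgroup.mem_inf]

theorem cj_bot (g : T) : cj (⊥ : Subgroup T) g = ⊥ := by
  ext x
  rw [mem_cj, Subgroup.mem_bot, Subgroup.mem_bot]
  constructor
  · intro h
    have : x = g * (g⁻¹ * x * g) * g⁻¹ := by group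
    rw [this, h]; group
  · rintro rfl; group

theorem cj_mono {X Y : Subgroup T} (h : X ≤ Y) (g : T) : cj X g ≤ cj Y g := by
  intro x hx
  rw [mem_cj] at hx ⊢
  exact h hx

theorem card_cj (X : Subgroup T) (g : T) : Nat.card (cj X g) = Nat.card X :=
  (Nat.card_congr (X.equivMapOfInjective _ (MulAut.conj g).injective).toEquiv).symm

/-! ### `Adj` -/

theorem adj_symm {X A B : Subgroup T} (h : Adj X A B) : Adj X B A := by
  obtain ⟨S, Q, h1, h2, h3⟩ := h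
  exact ⟨S, Q, h2, h1, h3⟩

theorem adj_cj {X A B : Subgroup T} (h : Adj X A B) (g : T) :
    Adj X (cj A g) (cj B g) := by
  classical
  obtain ⟨S, Q, h1, h2, h3, h4, h5, h6, h7⟩ := h
  refine ⟨S.image fun C => cj C g, cj Q g, Finset.mem_image_of_mem _ h1, Finset.mem_image_of_mem _ h2, ?_, ?_, ?_, ?_, ?_⟩
  · intro C hC
    obtain ⟨C', hC', rfl⟩ := Finset.mem_image.1 hC
    obtain ⟨g', rfl⟩ := h3 C' hC'
    exact ⟨g * g', cj_cj _ _ _⟩
  · rw [Finset.card_image_of_injective _ fun C C' h => cj_inj h, h4]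
  · intro C hC C' hC' hne
    obtain ⟨E, hE, rfl⟩ := Finset.mem_image.1 hC
    obtain ⟨E', hE', rfl⟩ := Finset.mem_image.1 hC'
    rw [← cj_inf, h5 E hE E' hE' (fun h => hne (by rw [h])), cj_bot]
  · intro C hC
    obtain ⟨C', hC', rfl⟩ := Finset.mem_image.1 hC
    exact cj_mono (h6 C' hC') g
  · rw [card_cj, h7]

section adj

variable {F : Type w} [Field F] [Finite F]

/-- The partition of a group `F × F`. -/
theorem adj_of {X A B : Subgroup T} (a b k : F → T) (ha : ∀ s t, a (s + t) = a s * a t)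
    (hb : ∀ s t, b (s + t) = b s * b t) (hA : ∀ g, g ∈ A ↔ ∃ t, g = a t) (hB : ∀ g, g ∈ B ↔ ∃ t, g = b t)
    (hab : ∀ s t, a s * b t = b t * a s) (hind : ∀ s t, a s = b t → s = 0 ∧ t = 0) {m : F} (hm : m ≠ 0)
    (hk : ∀ u t, k u * b t * (k u)⁻¹ = b t * a (m * u * t)) (hAX : ∃ g, A = cj X g) (hBX : ∃ g, B = cj X g)
    (hX : Nat.card X = Nat.card F) : Adj X A B := by
  classical
  have := Fintype.ofFinite F
  have ha0 : a 0 = 1 := by
    have := ha 0 0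
    rw [add_zero] at this
    exact left_eq_mul.1 this
  have hb0 : b 0 = 1 := by
    have := hb 0 0
    rw [add_zero] at this
    exact left_eq_mul.1 this
  have han : ∀ t, a (-t) = (a t)⁻¹ := by
    intro t
    apply eq_inv_of_mul_eq_one_left
    rw [← ha, neg_add_cancel, ha0]
  have hbn : ∀ t, b (-t) = (b t)⁻¹ := by
    intro t
    apply eq_inv_of_mul_eq_one_left
    rw [← hb, neg_add_cancel, hb0]
  -- uniqueness
  have huniq : ∀ s t s' t', b t * a s = b t' * a s' → s = s' ∧ t = t' := by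
    intro s t s' t' h
    have h1 : a (s - s') = b (t' - t) := by
      rw [sub_eq_add_neg, sub_eq_add_neg, ha, hb, han, hbn]
      have h2 : a s * (a s')⁻¹ = (b t)⁻¹ * b t' := by
        calc a s * (a s')⁻¹ = (b t)⁻¹ * (b t * a s) * (a s')⁻¹ := by group
          _ = (b t)⁻¹ * (b t' * a s') * (a s')⁻¹ := by rw [h]
          _ = _ := by group
      have h3 : (b t)⁻¹ * b t' = b t' * (b t)⁻¹ := by
        rw [← hbn, ← hb, ← hb, add_comm]
      rw [h2, h3]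
    obtain ⟨h2, h3⟩ := hind _ _ h1
    exact ⟨sub_eq_zero.1 h2, (sub_eq_zero.1 h3).symm⟩
  have hmem : ∀ u g, g ∈ cj B (k u) ↔ ∃ t, g = b t * a (m * u * t) := by
    intro u g
    rw [mem_cj, hB]
    constructor
    · rintro ⟨t, ht⟩
      refine ⟨t, ?_⟩
      rw [← hk, ← ht]; group
    · rintro ⟨t, ht⟩
      refine ⟨t, ?_⟩
      rw [ht, ← hk]; group
  have hk0 : cj B (k 0) = B := by
    ext g
    rw [hmem, hB]
    simp only [mul_zero, zero_mul, ha0, mul_one]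
  -- the group
  let φ : Multiplicative (F × F) →* T :=
    { toFun := fun p => b p.toAdd.2 * a p.toAdd.1
      map_one' := by
        show b (0 : F × F).2 * a (0 : F × F).1 = 1
        rw [Prod.fst_zero, Prod.snd_zero, ha0, hb0, one_mul]
      map_mul' := by
        intro p p'
        show b (p.toAdd + p'.toAdd).2 * a (p.toAdd + p'.toAdd).1 = b p.toAdd.2 * a p.toAdd.1 * (b p'.toAdd.2 * a p'.toAdd.1)
        rw [Prod.fst_add, Prod.snd_add, ha, hb]
        have := hab p.toAdd.1 p'.toAdd.2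
        calc b p.toAdd.2 * b p'.toAdd.2 * (a p.toAdd.1 * a p'.toAdd.1)
            = b p.toAdd.2 * (b p'.toAdd.2 * a p.toAdd.1) * a p'.toAdd.1 := by group
          _ = b p.toAdd.2 * (a p.toAdd.1 * b p'.toAdd.2) * a p'.toAdd.1 := by rw [this]
          _ = _ := by group }
  have hφ : ∀ p : F × F, φ (Multiplicative.ofAdd p) = b p.2 * a p.1 := fun p => rfl
  have hφi : Function.Injective φ := by
    intro p p' h
    obtain ⟨h1, h2⟩ := huniq p.toAdd.1 p.toAdd.2 p'.toAdd.1 p'.toAdd.2 h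
    exact Multiplicative.toAdd.injective (Prod.ext h1 h2)
  refine ⟨insert A (Finset.univ.image fun u => cj B (k u)), φ.range, Finset.mem_insert_self _ _,
    Finset.mem_insert_of_mem (Finset.mem_image.2 ⟨0, Finset.mem_univ _, hk0⟩), ?_, ?_, ?_, ?_, ?_⟩
  · intro C hC
    rcases Finset.mem_insert.1 hC with rfl | hC
    · exact hAX
    · obtain ⟨u, -, rfl⟩ := Finset.mem_image.1 hC
      obtain ⟨g, rfl⟩ := hBX
      exact ⟨k u * g, cj_cj _ _ _⟩
  · rw [Finset.card_insert_of_notMem, Finset.card_image_of_injective, Finset.card_univ, hX, Nat.card_eq_fintype_card]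
    · intro u u' h
      have h1 : b 1 * a (m * u * 1) ∈ cj B (k u') := by
        have h' : cj B (k u) = cj B (k u') := h
        rw [← h', hmem]
        exact ⟨1, rfl⟩
      rw [hmem] at h1
      obtain ⟨t, ht⟩ := h1
      obtain ⟨h2, h3⟩ := huniq _ _ _ _ ht
      rw [← h3, mul_one, mul_one] at h2
      exact mul_left_cancel₀ hm h2
    · intro h
      obtain ⟨u, -, h⟩ := Finset.mem_image.1 h
      have h1 : a 1 ∈ cj B (k u) := by
        rw [h, hA]
        exact ⟨1, rfl⟩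
      rw [hmem] at h1
      obtain ⟨t, ht⟩ := h1
      have h2 : b 0 * a 1 = b t * a (m * u * t) := by rw [hb0, one_mul]; exact ht
      obtain ⟨h3, h4⟩ := huniq _ _ _ _ h2
      rw [← h4, mul_zero] at h3
      exact one_ne_zero h3
  · -- intersections
    have hcA : ∀ u, A ⊓ cj B (k u) = ⊥ := by
      intro u
      rw [eq_bot_iff]
      rintro g ⟨h1, h2⟩
      obtain ⟨s, rfl⟩ := (hA _).1 h1
      obtain ⟨t, ht⟩ := (hmem _ _).1 h2
      have h3 : b 0 * a s = b t * a (m * u * t) := by rw [hb0, one_mul]; exact ht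
      obtain ⟨h4, h5⟩ := huniq _ _ _ _ h3
      rw [← h5, mul_zero] at h4
      rw [Subgroup.mem_bot, h4, ha0]
    intro C hC C' hC' hne
    rcases Finset.mem_insert.1 hC with rfl | hC
    · rcases Finset.mem_insert.1 hC' with rfl | hC'
      · exact absurd rfl hne
      · obtain ⟨u, -, rfl⟩ := Finset.mem_image.1 hC'
        exact hcA u
    · obtain ⟨u, -, rfl⟩ := Finset.mem_image.1 hC
      rcases Finset.mem_insert.1 hC' with rfl | hC'
      · rw [inf_comm]; exact hcA u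
      · obtain ⟨u', -, rfl⟩ := Finset.mem_image.1 hC'
        rw [eq_bot_iff]
        rintro g ⟨h1, h2⟩
        obtain ⟨t, rfl⟩ := (hmem _ _).1 h1
        obtain ⟨t', ht'⟩ := (hmem _ _).1 h2
        obtain ⟨h3, h4⟩ := huniq _ _ _ _ ht'
        rw [← h4] at h3
        by_cases ht : t = 0
        · rw [ht, Subgroup.mem_bot, mul_zero, ha0, hb0, one_mul]
        · exfalso
          apply hne
          have h5 : u = u' := mul_left_cancel₀ hm (mul_right_cancel₀ ht h3)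
          rw [h5]
  · intro C hC
    rcases Finset.mem_insert.1 hC with rfl | hC
    · intro g hg
      obtain ⟨t, rfl⟩ := (hA _).1 hg
      refine ⟨Multiplicative.ofAdd (t, 0), ?_⟩
      rw [hφ, hb0, one_mul]
    · obtain ⟨u, -, rfl⟩ := Finset.mem_image.1 hC
      intro g hg
      obtain ⟨t, rfl⟩ := (hmem _ _).1 hg
      exact ⟨Multiplicative.ofAdd (m * u * t, t), hφ _⟩
  · rw [← Nat.card_congr (MonoidHom.ofInjective hφi).toEquiv, Nat.card_congr Multiplicative.toAdd, Nat.card_prod, hX,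
      pow_two]

end adj

/-! ### `Lev` -/

theorem lev_cj {X : Subgroup T} {z : T} (h : Lev X z) (g : T) : Lev X (g * z * g⁻¹) := by
  obtain ⟨Y, h', hb⟩ := h
  refine ⟨cj Y g, g * h', ?_, ?_, ?_⟩
  · intro w hw
    have h1 := hb.mapsTo (mem_cj.1 hw)
    show g * z * g⁻¹ * w * (g * z * g⁻¹)⁻¹ * w⁻¹ ∈ cj X (g * h')
    rw [← cj_cj, mem_cj]
    have h2 : g⁻¹ * (g * z * g⁻¹ * w * (g * z * g⁻¹)⁻¹ * w⁻¹) * g =
        z * (g⁻¹ * w * g) * z⁻¹ * (g⁻¹ * w * g)⁻¹ := by group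
    rw [h2]
    exact h1
  · intro w hw w' hw' he
    have he' : g * z * g⁻¹ * w * (g * z * g⁻¹)⁻¹ * w⁻¹ = g * z * g⁻¹ * w' * (g * z * g⁻¹)⁻¹ * w'⁻¹ := he
    have h1 := hb.injOn (mem_cj.1 hw) (mem_cj.1 hw') (by
      show z * (g⁻¹ * w * g) * z⁻¹ * (g⁻¹ * w * g)⁻¹ = z * (g⁻¹ * w' * g) * z⁻¹ * (g⁻¹ * w' * g)⁻¹
      calc z * (g⁻¹ * w * g) * z⁻¹ * (g⁻¹ * w * g)⁻¹ = g⁻¹ * (g * z * g⁻¹ * w * (g * z * g⁻¹)⁻¹ * w⁻¹) * g := by group
        _ = g⁻¹ * (g * z * g⁻¹ * w' * (g * z * g⁻¹)⁻¹ * w'⁻¹) * g := by rw [he']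
        _ = _ := by group)
    have h2 : w = g * (g⁻¹ * w * g) * g⁻¹ := by group
    rw [h2, h1]; group
  · intro y hy
    have hy' : y ∈ cj X (g * h') := hy
    rw [← cj_cj, mem_cj] at hy'
    obtain ⟨w, hw, hwe⟩ := hb.surjOn hy'
    refine ⟨g * w * g⁻¹, conj_mem_cj hw, ?_⟩
    have hwe' : z * w * z⁻¹ * w⁻¹ = g⁻¹ * y * g := hwe
    show g * z * g⁻¹ * (g * w * g⁻¹) * (g * z * g⁻¹)⁻¹ * (g * w * g⁻¹)⁻¹ = y
    calc g * z * g⁻¹ * (g * w * g⁻¹) * (g * z * g⁻¹)⁻¹ * (g * w * g⁻¹)⁻¹ = g * (z * w * z⁻¹ * w⁻¹) * g⁻¹ := by group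
      _ = g * (g⁻¹ * y * g) * g⁻¹ := by rw [hwe']
      _ = y := by group

theorem lev_of {F : Type w} [Field F] {X Y : Subgroup T} {z : T} (y x : F → T) (hY : ∀ g, g ∈ Y ↔ ∃ t, g = y t)
    {h : T} (hx : ∀ g, g ∈ cj X h ↔ ∃ t, g = x t) (hxi : Function.Injective x) {c : F} (hc : c ≠ 0)
    (hz : ∀ v, z * y v * z⁻¹ * (y v)⁻¹ = x (c * v)) : Lev X z := by
  refine ⟨Y, h, ?_, ?_, ?_⟩
  · intro w hw
    obtain ⟨v, rfl⟩ := (hY _).1 hw
    exact (hx _).2 ⟨_, hz v⟩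
  · intro w hw w' hw' he
    obtain ⟨v, rfl⟩ := (hY _).1 hw
    obtain ⟨v', rfl⟩ := (hY _).1 hw'
    have h1 : z * y v * z⁻¹ * (y v)⁻¹ = z * y v' * z⁻¹ * (y v')⁻¹ := he
    rw [hz, hz] at h1
    rw [mul_left_cancel₀ hc (hxi h1)]
  · intro g hg
    obtain ⟨t, rfl⟩ := (hx _).1 hg
    refine ⟨y (c⁻¹ * t), (hY _).2 ⟨_, rfl⟩, ?_⟩
    show z * y (c⁻¹ * t) * z⁻¹ * (y (c⁻¹ * t))⁻¹ = x t
    rw [hz, mul_inv_cancel_left₀ hc]

/-! ### `LRG` -/

/-- a path of length `l` -/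
def Pth (X A B : Subgroup T) (l : ℕ) : Prop :=
  ∃ p : ℕ → Subgroup T, p 0 = A ∧ p l = B ∧ ∀ i < l, Adj X (p i) (p (i + 1))

theorem Pth.zero (X A : Subgroup T) : Pth X A A 0 := ⟨fun _ => A, rfl, rfl, fun _ h => absurd h (Nat.not_lt_zero _)⟩

theorem Pth.cons {X A B C : Subgroup T} {l : ℕ} (h : Adj X A B) (h' : Pth X B C l) : Pth X A C (l + 1) := by
  obtain ⟨p, h1, h2, h3⟩ := h'
  refine ⟨fun i => Nat.casesOn i A p, rfl, h2, ?_⟩
  intro i hi
  rcases i with _ | i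
  · show Adj X A (p 0)
    rw [h1]; exact h
  · exact h3 i (by omega)

theorem pth_cj {X A B : Subgroup T} {l : ℕ} (h : Pth X A B l) (g : T) : Pth X (cj A g) (cj B g) l := by
  obtain ⟨p, h1, h2, h3⟩ := h
  exact ⟨fun i => cj (p i) g, congrArg (fun Z => cj Z g) h1, congrArg (fun Z => cj Z g) h2, fun i hi => adj_cj (h3 i hi) g⟩

theorem lrg_of {X : Subgroup T} {c : ℕ} (P : Subgroup T → Prop)
    (hrep : ∀ g : T, ∃ b : T, cj X b = X ∧ ∃ A, P A ∧ cj X g = cj A b)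
    (h1 : ∀ A, P A → A ≠ X → A ⊓ X = ⊥) (h2 : ∀ A, P A → ∃ l ≤ c, Pth X X A l)
    (h3 : ∀ A, P A → A ≠ X → ∀ a ∈ X, a ≠ 1 → ∀ b ∈ A, b ≠ 1 → Lev X (a * b)) : LRG X c := by
  refine ⟨?_, ?_, ?_⟩
  · intro g hg
    obtain ⟨b, hb, A, hA, hgA⟩ := hrep g
    have hne : A ≠ X := by
      rintro rfl
      exact hg (by rw [hgA, hb])
    have h4 := h1 A hA hne
    calc cj X g ⊓ X = cj A b ⊓ cj X b := by rw [hgA, hb]
      _ = ⊥ := by rw [← cj_inf, h4, cj_bot]
  · intro g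
    obtain ⟨b, hb, A, hA, hgA⟩ := hrep g
    obtain ⟨l, hl, hp⟩ := h2 A hA
    have h4 := pth_cj hp b
    rw [hb, ← hgA] at h4
    obtain ⟨p, h5⟩ := h4
    exact ⟨l, p, hl, h5⟩
  · intro g hg a ha ha1 b' hb' hb1
    obtain ⟨b, hb, A, hA, hgA⟩ := hrep g
    have hne : A ≠ X := by
      rintro rfl
      exact hg (by rw [hgA, hb])
    rw [hgA, mem_cj] at hb'
    have ha' : b⁻¹ * a * b ∈ X := by
      rw [← mem_cj, hb]; exact ha
    have h4 := lev_cj (h3 A hA hne _ ha' (fun h => ha1 (by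
      have : a = b * (b⁻¹ * a * b) * b⁻¹ := by group
      rw [this, h]; group)) _ hb' (fun h => hb1 (by
      have : b' = b * (b⁻¹ * b' * b) * b⁻¹ := by group
      rw [this, h]; group))) b
    have h5 : b * (b⁻¹ * a * b * (b⁻¹ * b' * b)) * b⁻¹ = a * b' := by group
    rwa [h5] at h4

end Cfsg.Agent.H274.Rg
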