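import Cfsg.Agent.H274.Rg.Abs
import Cfsg.Agent.H86.Pair

/-!
# Long root groups of the Chevalley groups (S5714): reduction to table facts

`HiR D isL` : the table facts; `lrg_chev_of` : `LRG X 3` for the highest root subgroup.
-/

set_option autoImplicit false

namespace Cfsg.Agent.H274.Rg

open Cfsg.Lie Cfsg.Agent.ChevalleyStructure Cfsg.Agent.ChevalleyStructure.RootCombGood
  Cfsg.Agent.ChevalleyStructure.RootWord Cfsg.Agent.ChevalleyStructure.RootVec
  Cfsg.Agent.ChevalleyStructure.RootVecTab Cfsg.Agent.ChevalleyStructure.RootSupport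
  Cfsg.Agent.ChevalleyStructure.Elts Cfsg.Agent.ChevalleyStructure.BruhatSplit
  Cfsg.Agent.H86.Lev Cfsg.Agent.H86.Graded Cfsg.Agent.H86.Par Cfsg.Agent.H92.ChevCent
  Cfsg.Agent.H141.Rg

universe u

/-- Table facts on the long roots. -/
structure HiR (D : ChevalleyDatum) (isL : ℕ → Bool) : Prop where
  one : ∀ s < D.nroots, isL s = true → car D (D.nroots - 1) s = 1 → ∃ (c : ℕ) (m : ℤ), (m = 1 ∨ m = -1) ∧
    c < D.nroots ∧ s ≠ c ∧ s ≠ D.neg c ∧ D.commTerms c s = [(D.nroots - 1, m, 1, 1)]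
  zero : ∀ s < D.nroots, isL s = true → car D (D.nroots - 1) s = 0 →
    (∃ d < D.nroots, isL d = true ∧ car D (D.nroots - 1) d = 1 ∧ car D s d = 1) ∧
    (∃ d < D.nroots, isL d = true ∧ car D (D.nroots - 1) d = -1 ∧ 0 ≤ car D s d)
  ex : ∃ d < D.nroots, isL d = true ∧ car D (D.nroots - 1) d = -1

variable {D : ChevalleyDatum} (hD : InList D) {F : Type u} [Field F]

/-- root elements -/
def xT (r : ℕ) (t : F) : D.group F := ⟨xG hD r t, xG_mem_group hD r t⟩

/-- root subgroups -/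
def XT (D : ChevalleyDatum) (F : Type u) [Field F] (r : ℕ) : Subgroup ↥(D.group F) := (D.rootSubgroup F r).subgroupOf (D.group F)

include hD in
theorem mem_XT {r : ℕ} {g : D.group F} : g ∈ XT D F r ↔ ∃ t : F, g = xT hD r t := by
  rw [XT, Subgroup.mem_subgroupOf, mem_rootSubgroup_iff hD]
  constructor
  · rintro ⟨t, ht⟩
    exact ⟨t, Subtype.ext ht⟩
  · rintro ⟨t, rfl⟩
    exact ⟨t, rfl⟩

theorem xT_add (r : ℕ) (t u : F) : xT hD r (t + u) = xT hD r t * xT hD r u :=
  Subtype.ext (xG_add hD r t u).symm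

theorem xT_inv (r : ℕ) (t : F) : (xT hD r t)⁻¹ = xT hD r (-t) := Subtype.ext (xG_inv hD r t)

theorem xT_zero (r : ℕ) : xT hD r (0 : F) = 1 := Subtype.ext (xG_zero hD r)

theorem xT_self (r : ℕ) (t u : F) : xT hD r t * xT hD r u = xT hD r u * xT hD r t := by
  rw [← xT_add, ← xT_add, add_comm]

theorem xT_eq_one {r : ℕ} (hr : r < D.nroots) {t : F} (h : xT hD r t = 1) : t = 0 :=
  (xG_eq_one_iff hD hr t).1 (congrArg Subtype.val h)

theorem xT_inj {r : ℕ} (hr : r < D.nroots) : Function.Injective (xT hD r : F → D.group F) := by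
  intro t u h
  have h1 : xT hD r (t - u) = 1 := by
    rw [sub_eq_add_neg, xT_add, ← xT_inv, h, mul_inv_cancel]
  exact sub_eq_zero.1 (xT_eq_one hD hr h1)

theorem xT_ind {r s : ℕ} (hr : r < D.nroots) (hs : s < D.nroots) (hrs : r ≠ s) {t u : F} (h : xT hD r t = xT hD s u) :
    t = 0 ∧ u = 0 := by
  have ht : t = 0 := by
    by_contra ht
    exact hrs (eq_of_xG_eq hD hr hs ht (congrArg Subtype.val h)).symm
  refine ⟨ht, ?_⟩
  rw [ht, xT_zero] at h
  exact xT_eq_one hD hs h.symm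

include hD in
theorem card_XT {r : ℕ} (hr : r < D.nroots) : Nat.card (XT D F r) = Nat.card F := by
  refine (Nat.card_congr (Equiv.ofBijective (fun t : F => (⟨xT hD r t, (mem_XT hD).2 ⟨t, rfl⟩⟩ : XT D F r)) ⟨?_, ?_⟩)).symm
  · intro t u h
    exact xT_inj hD hr (congrArg Subtype.val h)
  · rintro ⟨g, hg⟩
    obtain ⟨t, rfl⟩ := (mem_XT hD).1 hg
    exact ⟨t, rfl⟩

/-- the commutator formula with a single term -/
theorem xT_term {c s r : ℕ} {m : ℤ} (hc : c < D.nroots) (hs : s < D.nroots) (h1 : s ≠ c) (h2 : s ≠ D.neg c)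
    (h : D.commTerms c s = [(r, m, 1, 1)]) (t v : F) :
    xT hD s v * xT hD c t = xT hD c t * xT hD s v * xT hD r (-(m * t * v)) := by
  apply Subtype.ext
  show xG hD s v * xG hD c t = xG hD c t * xG hD s v * xG hD r (-(m * t * v))
  rw [UnipProd.xG_comm hD hc hs h1 h2]
  congr 1
  unfold ChevalleyDatum.commWord
  rw [h]
  simp only [List.map_cons, List.map_nil, wordG_cons, wordG_nil, mul_one, pow_one]
  congr 1
  ring

/-- root elements of nonnegative level commute with the highest root group -/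
theorem comm_top {r : ℕ} (hr : r < D.nroots) (h : 0 ≤ car D (top D) r) (v t : F) :
    xT hD r v * xT hD (top D) t = xT hD (top D) t * xT hD r v :=
  Subtype.ext (comm_top0 hD hr h v t)

include hD

/-- an element mapping a long root to the highest root -/
theorem exists_conj {isL : ℕ → Bool} (H : HiP D isL) {s : ℕ} (hs : s < D.nroots) (hL : isL s = true) :
    ∃ (w : List ℕ) (n : D.group F), (∀ a ∈ w, a < D.rank) ∧ wact D w s = top D ∧
      (∀ r < D.nroots, cj (XT D F r) n = XT D F (wact D w r)) := by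
  obtain ⟨w, hw, e⟩ := long_to_top hD H _ s rfl hs hL
  obtain ⟨m, hm, hact⟩ := exists_NL_acts hD F w hw
  refine ⟨w, ⟨m, monomial_le_group hD F (NL_le D hm)⟩, hw, e, fun r hr => ?_⟩
  ext g
  rw [Rg.mem_cj, XT, XT, Subgroup.mem_subgroupOf, Subgroup.mem_subgroupOf, ← hact r hr, mem_map_conj]
  rfl

/-- `X_s` is conjugate to the highest root group -/
theorem conj_top {isL : ℕ → Bool} (H : HiP D isL) {s : ℕ} (hs : s < D.nroots) (hL : isL s = true) :
    ∃ g : D.group F, XT D F s = cj (XT D F (top D)) g := by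
  obtain ⟨w, n, hw, e, hn⟩ := exists_conj hD (F := F) H hs hL
  refine ⟨n⁻¹, ?_⟩
  rw [← e, ← hn s hs, Rg.cj_cj, inv_mul_cancel, Rg.cj_one]

/-- long root elements commute with root elements at an angle at most 90 degrees -/
theorem comm_long {isL : ℕ → Bool} (H : HiP D isL) {s r : ℕ} (hs : s < D.nroots) (hL : isL s = true)
    (hr : r < D.nroots) (h : 0 ≤ car D s r) {a b : D.group F} (ha : a ∈ XT D F s) (hb : b ∈ XT D F r) : a * b = b * a := by
  obtain ⟨w, n, hw, e, hn⟩ := exists_conj hD (F := F) H hs hL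
  have h1 : n * a * n⁻¹ ∈ XT D F (top D) := by
    rw [← e, ← hn s hs]; exact Rg.conj_mem_cj ha
  have h2 : n * b * n⁻¹ ∈ XT D F (wact D w r) := by
    rw [← hn r hr]; exact Rg.conj_mem_cj hb
  obtain ⟨t, ht⟩ := (mem_XT hD).1 h1
  obtain ⟨v, hv⟩ := (mem_XT hD).1 h2
  have h3 := car_wact (good hD) hw hs hr
  rw [e] at h3
  have h4 := comm_top hD (wact_lt (good hD) hw hr) (by rw [h3]; exact h) v t
  rw [← ht, ← hv] at h4
  calc a * b = n⁻¹ * (n * a * n⁻¹ * (n * b * n⁻¹)) * n := by group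
    _ = n⁻¹ * (n * b * n⁻¹ * (n * a * n⁻¹)) * n := by rw [h4]
    _ = b * a := by group

/-- the data of a long root of level `-1` -/
theorem neg_one {isL : ℕ → Bool} (H : HiP D isL) {s : ℕ} (hs : s < D.nroots) (hL : isL s = true)
    (h : car D (top D) s = -1) : ∃ γ < D.nroots, isL γ = true ∧ car D (top D) γ = 1 ∧ γ ≠ s ∧ ∃ c : F, c ≠ 0 ∧
      (∀ t v : F, xT hD s v * xT hD (top D) t = xT hD (top D) t * xT hD s v * xT hD γ (-(c * t * v))) ∧
      (∀ u v : F, xT hD γ u * xT hD s v = xT hD s v * xT hD γ u) ∧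
      (∀ u t : F, xT hD γ u * xT hD (top D) t = xT hD (top D) t * xT hD γ u) := by
  have G := good hD
  obtain ⟨γ, c, hcom, hc1, hγL, -⟩ := chkLong_spec (H.long s hs hL h)
  have hc := checked_of_mem hD
  have hmem : (γ, c, 1, 1) ∈ D.commTerms (top D) s := by rw [hcom]; exact List.mem_singleton_self _
  have h1 := commTerms_lin hc (lin_car hc (top D)) hmem
  have h2 := commTerms_lin hc (lin_car hc s) hmem
  obtain ⟨hγ, -, -, h1⟩ := h1
  obtain ⟨-, -, -, h2⟩ := h2
  simp only [Nat.cast_one, one_mul, car_top hD, h] at h1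
  simp only [Nat.cast_one, one_mul, G.car_self hs] at h2
  replace hγ : γ < D.nroots := hγ
  have h3 : car D (top D) γ = 1 := by rw [h1]; norm_num
  -- `-2 ≤ car s a`
  have h4 : -2 ≤ car D s (top D) := by
    obtain ⟨w, hw, e⟩ := long_to_top hD H _ s rfl hs hL
    have := car_wact G hw hs (top_lt hD)
    rw [e] at this
    rw [← this]
    exact (hiT hD).low _ (wact_lt G hw (top_lt hD))
  have hne1 : s ≠ top D := by
    rintro rfl
    rw [car_top hD] at h
    norm_num at h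
  have hne2 : s ≠ D.neg (top D) := by
    rintro rfl
    rw [car_neg_right G _ (top_lt hD), car_top hD] at h
    norm_num at h
  have hcF : (c : F) ≠ 0 := by
    rcases hc1 with rfl | rfl <;> simp
  refine ⟨γ, hγ, hγL, h3, ?_, (c : F), hcF, ?_, ?_, ?_⟩
  · rintro rfl
    omega
  · intro t v
    exact xT_term hD (top_lt hD) hs hne1 hne2 hcom t v
  · intro u v
    exact (comm_long hD H hs hL hγ (by rw [h2]; omega) ((mem_XT hD).2 ⟨v, rfl⟩) ((mem_XT hD).2 ⟨u, rfl⟩)).symm
  · intro u t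
    exact comm_top hD hγ (by omega) u t

section main

variable {isL : ℕ → Bool} (H : HiP D isL) (R : HiR D isL)

/-- the commutator of `x_a(t)` with the root group of level `-1` -/
theorem brk {s γ : ℕ} {c : F} (h1 : ∀ t v : F, xT hD s v * xT hD (top D) t =
      xT hD (top D) t * xT hD s v * xT hD γ (-(c * t * v)))
    (h2 : ∀ u v : F, xT hD γ u * xT hD s v = xT hD s v * xT hD γ u)
    (h3 : ∀ u t : F, xT hD γ u * xT hD (top D) t = xT hD (top D) t * xT hD γ u) (t v : F) :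
    xT hD (top D) t * xT hD s v * (xT hD (top D) t)⁻¹ * (xT hD s v)⁻¹ = xT hD γ (c * t * v) := by
  have h4 := h1 t v
  have h5 : xT hD γ (c * t * v) * (xT hD s v * xT hD (top D) t) = xT hD (top D) t * xT hD s v := by
    rw [h4]
    have h6 : xT hD (top D) t * xT hD s v * xT hD γ (-(c * t * v)) = xT hD γ (-(c * t * v)) * (xT hD (top D) t * xT hD s v) := by
      rw [mul_assoc, ← h2, ← mul_assoc, ← h3, mul_assoc]
    rw [h6, ← mul_assoc, ← xT_add, add_neg_cancel, xT_zero, one_mul]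
  rw [← h5]
  group

include H R in
theorem lev_top {t : F} (ht : t ≠ 0) : Lev (XT D F (top D)) (xT hD (top D) t) := by
  obtain ⟨d, hd, hL, h⟩ := R.ex
  obtain ⟨γ, hγ, hγL, h3, hne, c, hc, e1, e2, e3⟩ := neg_one hD (F := F) H hd hL h
  obtain ⟨g, hg⟩ := conj_top hD (F := F) H hγ hγL
  refine lev_of (Y := XT D F d) (xT hD d) (xT hD γ) (fun g => mem_XT hD) (h := g) (fun x => by rw [← hg]; exact mem_XT hD)
    (xT_inj hD hγ) (c := c * t) (mul_ne_zero hc ht) fun v => ?_
  exact brk hD e1 e2 e3 t v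

include H R in
theorem lev_long {s : ℕ} (hs : s < D.nroots) (hL : isL s = true) {x : D.group F} (hx : x ∈ XT D F s) (hx1 : x ≠ 1) :
    Lev (XT D F (top D)) x := by
  obtain ⟨g, hg⟩ := conj_top hD (F := F) H hs hL
  rw [hg, Rg.mem_cj] at hx
  obtain ⟨t, ht⟩ := (mem_XT hD).1 hx
  have ht0 : t ≠ 0 := by
    rintro rfl
    rw [xT_zero] at ht
    apply hx1
    have : x = g * (g⁻¹ * x * g) * g⁻¹ := by group
    rw [this, ht]; group
  have h1 := lev_cj (lev_top hD H R ht0) g
  rw [← ht] at h1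
  have : g * (g⁻¹ * x * g) * g⁻¹ = x := by group
  rwa [this] at h1

include H R in
/-- `X_a` and a long root group of level one -/
theorem adj_one [Finite F] {s : ℕ} (hs : s < D.nroots) (hL : isL s = true) (h : car D (top D) s = 1) :
    Adj (XT D F (top D)) (XT D F (top D)) (XT D F s) := by
  obtain ⟨c, m, hm, hc, hne, hne', hcom⟩ := R.one s hs hL h
  have hmF : -(m : F) ≠ 0 := by
    rcases hm with rfl | rfl <;> simp
  refine adj_of (xT hD (top D)) (xT hD s) (fun u => (xT hD c u)⁻¹) (xT_add hD _) (xT_add hD _) (fun g => mem_XT hD)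
    (fun g => mem_XT hD) (fun a b => (comm_top hD hs (by omega) b a).symm) (fun a b hab => ?_) hmF (fun u t => ?_)
    ⟨1, (Rg.cj_one _).symm⟩ (conj_top hD H hs hL) (card_XT hD (top_lt hD))
  · refine xT_ind hD (top_lt hD) hs ?_ hab
    rintro rfl
    rw [car_top hD] at h
    norm_num at h
  · have h1 := xT_term hD hc hs hne hne' hcom u t
    rw [inv_inv, mul_assoc, h1]
    have h2 : -(m : F) * u * t = -(m * u * t) := by ring
    rw [h2]
    group

include H R in
/-- two long root groups at 60 degrees -/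
theorem adj_long [Finite F] {r s : ℕ} (hr : r < D.nroots) (hs : s < D.nroots) (hrL : isL r = true) (hsL : isL s = true)
    (h : car D r s = 1) : Adj (XT D F (top D)) (XT D F r) (XT D F s) := by
  obtain ⟨w, n, hw, e, hn⟩ := exists_conj hD (F := F) H hr hrL
  have G := good hD
  have h1 := car_wact G hw hr hs
  rw [e] at h1
  have h2 := adj_one hD (F := F) H R (wact_lt G hw hs) (wact_isL hD H w s hw hs hsL) (by rw [h1]; exact h)
  have h3 := adj_cj h2 n⁻¹
  rw [← hn s hs] at h3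
  have h4 : cj (XT D F (top D)) n⁻¹ = XT D F r := by
    rw [← e, ← hn r hr, Rg.cj_cj, inv_mul_cancel, Rg.cj_one]
  rw [h4, Rg.cj_cj, inv_mul_cancel, Rg.cj_one] at h3
  exact h3

include H in
/-- `X_{a+s}` and `X_s`, `s` of level `-1` -/
theorem adj_neg_one [Finite F] {s : ℕ} (hs : s < D.nroots) (hL : isL s = true) (h : car D (top D) s = -1) :
    ∃ γ < D.nroots, isL γ = true ∧ car D (top D) γ = 1 ∧ Adj (XT D F (top D)) (XT D F γ) (XT D F s) := by
  obtain ⟨γ, hγ, hγL, h3, hne, c, hc, e1, e2, e3⟩ := neg_one hD (F := F) H hs hL h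
  refine ⟨γ, hγ, hγL, h3, ?_⟩
  refine adj_of (m := -c) (xT hD γ) (xT hD s) (fun u => (xT hD (top D) u)⁻¹) (xT_add hD _) (xT_add hD _) (fun g => mem_XT hD)
    (fun g => mem_XT hD) e2 (fun a b hab => xT_ind hD hγ hs hne hab) (neg_ne_zero.2 hc) (fun u t => ?_)
    (conj_top hD H hγ hγL) (conj_top hD H hs hL) (card_XT hD (top_lt hD))
  rw [inv_inv, mul_assoc, e1]
  have h2 : -c * u * t = -(c * u * t) := by ring
  rw [h2]
  group

include H R in
theorem path_long [Finite F] {s : ℕ} (hs : s < D.nroots) (hL : isL s = true) :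
    ∃ l ≤ 3, Pth (XT D F (top D)) (XT D F (top D)) (XT D F s) l := by
  have h1 := (hiT hD).low s hs
  have h2 := (hiT hD).high s hs
  have one : ∀ d < D.nroots, isL d = true → car D (top D) d = 1 → Adj (XT D F (top D)) (XT D F (top D)) (XT D F d) :=
    fun d hd hdL h => adj_one hD H R hd hdL h
  rcases (show car D (top D) s = 2 ∨ car D (top D) s = 1 ∨ car D (top D) s = 0 ∨ car D (top D) s = -1 ∨
    car D (top D) s = -2 by omega) with h | h | h | h | h
  · have h3 := (hiT hD).top s hs h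
    rw [h3]
    exact ⟨0, by omega, Pth.zero _ _⟩
  · exact ⟨1, by omega, Pth.cons (one s hs hL h) (Pth.zero _ _)⟩
  · obtain ⟨⟨d, hd, hdL, h3, h4⟩, -⟩ := R.zero s hs hL h
    exact ⟨2, by omega, Pth.cons (one d hd hdL h3) (Pth.cons (adj_symm (adj_long hD H R hs hd hL hdL h4)) (Pth.zero _ _))⟩
  · obtain ⟨γ, hγ, hγL, h3, h4⟩ := adj_neg_one hD (F := F) H hs hL h
    exact ⟨2, by omega, Pth.cons (one γ hγ hγL h3) (Pth.cons h4 (Pth.zero _ _))⟩
  · obtain ⟨d, hd, hdL, h3⟩ := R.ex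
    obtain ⟨γ, hγ, hγL, h4, h5⟩ := adj_neg_one hD (F := F) H hd hdL h3
    have h6 : s = 0 := by
      refine (hi0 hD).top s hs ?_
      rw [car0 hD, h]; norm_num
    subst h6
    have h7 : car D 0 d = 1 := by rw [car0 hD, h3]; norm_num
    exact ⟨3, le_rfl, Pth.cons (one γ hγ hγL h4) (Pth.cons h5 (Pth.cons
      (adj_symm (adj_long hD H R hs hd hL hdL h7)) (Pth.zero _ _)))⟩

include H R in
theorem lev_pair [Finite F] {s : ℕ} (hs : s < D.nroots) (hL : isL s = true) (hne : s ≠ top D) {p q : D.group F}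
    (hp : p ∈ XT D F (top D)) (hp1 : p ≠ 1) (hq : q ∈ XT D F s) (hq1 : q ≠ 1) : Lev (XT D F (top D)) (p * q) := by
  have h1 := (hiT hD).low s hs
  have h2 := (hiT hD).high s hs
  obtain ⟨t, rfl⟩ := (mem_XT hD).1 hp
  obtain ⟨v, rfl⟩ := (mem_XT hD).1 hq
  have ht : t ≠ 0 := by rintro rfl; exact hp1 (xT_zero hD _)
  have hv : v ≠ 0 := by rintro rfl; exact hq1 (xT_zero hD _)
  -- a root of level `-1` commuting with `X_s`
  have key : (∃ d < D.nroots, isL d = true ∧ car D (top D) d = -1 ∧ 0 ≤ car D s d) →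
      Lev (XT D F (top D)) (xT hD (top D) t * xT hD s v) := by
    rintro ⟨d, hd, hdL, h, hsd⟩
    obtain ⟨γ, hγ, hγL, h3, -, c, hc, e1, e2, e3⟩ := neg_one hD (F := F) H hd hdL h
    obtain ⟨g, hg⟩ := conj_top hD (F := F) H hγ hγL
    refine lev_of (Y := XT D F d) (xT hD d) (xT hD γ) (fun g => mem_XT hD) (h := g)
      (fun x => by rw [← hg]; exact mem_XT hD) (xT_inj hD hγ) (c := c * t) (mul_ne_zero hc ht) fun w => ?_
    have h5 : xT hD s v * xT hD d w = xT hD d w * xT hD s v :=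
      comm_long hD H hs hL hd hsd ((mem_XT hD).2 ⟨v, rfl⟩) ((mem_XT hD).2 ⟨w, rfl⟩)
    rw [← brk hD e1 e2 e3 t w]
    calc xT hD (top D) t * xT hD s v * xT hD d w * (xT hD (top D) t * xT hD s v)⁻¹ * (xT hD d w)⁻¹
        = xT hD (top D) t * (xT hD s v * xT hD d w) * (xT hD s v)⁻¹ * (xT hD (top D) t)⁻¹ * (xT hD d w)⁻¹ := by group
      _ = xT hD (top D) t * (xT hD d w * xT hD s v) * (xT hD s v)⁻¹ * (xT hD (top D) t)⁻¹ * (xT hD d w)⁻¹ := by rw [h5]
      _ = _ := by group
  rcases (show car D (top D) s = 2 ∨ car D (top D) s = 1 ∨ car D (top D) s = 0 ∨ car D (top D) s = -1 ∨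
    car D (top D) s = -2 by omega) with h | h | h | h | h
  · exact absurd ((hiT hD).top s hs h) hne
  · -- conjugate to `x_s(v)`
    obtain ⟨c, m, hm, hc, hne, hne', hcom⟩ := R.one s hs hL h
    have hmF : (m : F) ≠ 0 := by
      rcases hm with rfl | rfl <;> simp
    have h3 := xT_term hD hc hs hne hne' hcom (-(t / (m * v))) v
    have h4 : -((m : F) * -(t / (m * v)) * v) = t := by field_simp
    rw [h4] at h3
    have h5 : (xT hD c (-(t / (m * v))))⁻¹ * xT hD s v * ((xT hD c (-(t / (m * v))))⁻¹)⁻¹ = xT hD (top D) t * xT hD s v := by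
      rw [inv_inv, mul_assoc, h3, ← comm_top hD hs (by omega)]
      group
    rw [← h5]
    exact lev_cj (lev_long hD H R hs hL ((mem_XT hD).2 ⟨v, rfl⟩) hq1) _
  · exact key (R.zero s hs hL h).2
  · -- level `-1`
    obtain ⟨γ, hγ, hγL, h3, -, c, hc, e1, e2, e3⟩ := neg_one hD (F := F) H hs hL h
    obtain ⟨g, hg⟩ := conj_top hD (F := F) H hγ hγL
    refine lev_of (Y := XT D F (top D)) (xT hD (top D)) (xT hD γ) (fun g => mem_XT hD) (h := g)
      (fun x => by rw [← hg]; exact mem_XT hD) (xT_inj hD hγ) (c := -(c * v)) (neg_ne_zero.2 (mul_ne_zero hc hv)) fun w => ?_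
    have h5 := e1 w v
    have h6 : -(c * w * v) = -(c * v) * w := by ring
    rw [h6] at h5
    set x := xT hD γ (-(c * v) * w) with hx
    have h7 : x * xT hD s v = xT hD s v * x := e2 _ _
    have h8 : ∀ t : F, x * xT hD (top D) t = xT hD (top D) t * x := e3 _
    calc xT hD (top D) t * xT hD s v * xT hD (top D) w * (xT hD (top D) t * xT hD s v)⁻¹ * (xT hD (top D) w)⁻¹
        = xT hD (top D) t * (xT hD s v * xT hD (top D) w) * (xT hD s v)⁻¹ * (xT hD (top D) t)⁻¹ * (xT hD (top D) w)⁻¹ := by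
          group
      _ = xT hD (top D) t * (xT hD (top D) w * xT hD s v * x) * (xT hD s v)⁻¹ * (xT hD (top D) t)⁻¹ *
          (xT hD (top D) w)⁻¹ := by rw [h5]
      _ = xT hD (top D) t * xT hD (top D) w * (xT hD s v * x) * (xT hD s v)⁻¹ * (xT hD (top D) t)⁻¹ *
          (xT hD (top D) w)⁻¹ := by group
      _ = xT hD (top D) t * xT hD (top D) w * (x * xT hD s v) * (xT hD s v)⁻¹ * (xT hD (top D) t)⁻¹ *
          (xT hD (top D) w)⁻¹ := by rw [h7]
      _ = xT hD (top D) t * (xT hD (top D) w * x) * (xT hD (top D) t)⁻¹ * (xT hD (top D) w)⁻¹ := by group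
      _ = xT hD (top D) t * (x * xT hD (top D) w) * (xT hD (top D) t)⁻¹ * (xT hD (top D) w)⁻¹ := by rw [h8]
      _ = (xT hD (top D) t * x) * xT hD (top D) w * (xT hD (top D) t)⁻¹ * (xT hD (top D) w)⁻¹ := by group
      _ = (x * xT hD (top D) t) * xT hD (top D) w * (xT hD (top D) t)⁻¹ * (xT hD (top D) w)⁻¹ := by rw [h8]
      _ = x * (xT hD (top D) t * xT hD (top D) w) * (xT hD (top D) t)⁻¹ * (xT hD (top D) w)⁻¹ := by group
      _ = x * (xT hD (top D) w * xT hD (top D) t) * (xT hD (top D) t)⁻¹ * (xT hD (top D) w)⁻¹ := by rw [xT_self hD _ t w]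
      _ = x := by group
  · refine key ?_
    obtain ⟨d, hd, hdL, h3⟩ := R.ex
    have h6 : s = 0 := by
      refine (hi0 hD).top s hs ?_
      rw [car0 hD, h]; norm_num
    subst h6
    refine ⟨d, hd, hdL, h3, ?_⟩
    rw [car0 hD, h3]; norm_num

include H R in
/-- **Long root groups.** -/
theorem lrg_of_tab [Finite F] : LRG (XT D F (top D)) 3 := by
  refine lrg_of (fun A => ∃ s < D.nroots, isL s = true ∧ A = XT D F s) ?_ ?_ ?_ ?_
  · intro g
    obtain ⟨b, hb, n, hn, b', hb', e⟩ := Cfsg.Agent.S1100.exists_bruhat hD g.2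
    have hbP := borel_le_P (F := F) hD hb
    have hbP' := borel_le_P (F := F) hD hb'
    have hP : ∀ x (hx : x ∈ P F D), cj (XT D F (top D)) (⟨x, hx.1⟩ : D.group F) = XT D F (top D) := by
      intro x hx
      ext y
      rw [Rg.mem_cj, XT, Subgroup.mem_subgroupOf, Subgroup.mem_subgroupOf]
      have h1 := Subgroup.mem_normalizer_iff.1 (Subgroup.inv_mem _ hx.2) (y : GL D.Idx F)
      rw [inv_inv] at h1
      exact h1.symm
    have hnG := monomial_le_group hD F hn
    obtain ⟨w, hw, hact⟩ := exists_acts hD hn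
    refine ⟨⟨b, hbP.1⟩, hP b hbP, cj (XT D F (top D)) ⟨n, hnG⟩, ⟨wact D w (top D), wact_lt (good hD) hw (top_lt hD),
      wact_isL hD H _ _ hw (top_lt hD) H.isL_top, ?_⟩, ?_⟩
    · ext g
      rw [Rg.mem_cj, XT, XT, Subgroup.mem_subgroupOf, Subgroup.mem_subgroupOf, ← hact _ (top_lt hD), mem_map_conj]
      rfl
    · have h1 : g = (⟨b, hbP.1⟩ : D.group F) * ⟨n, hnG⟩ * ⟨b', hbP'.1⟩ := Subtype.ext e
      rw [h1, ← Rg.cj_cj, hP b' hbP', Rg.cj_cj]
  · rintro _ ⟨s, hs, hL, rfl⟩ hne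
    rw [eq_bot_iff]
    rintro g ⟨h1, h2⟩
    obtain ⟨t, rfl⟩ := (mem_XT hD).1 h1
    obtain ⟨v, hv⟩ := (mem_XT hD).1 h2
    have hst : s ≠ top D := by
      rintro rfl
      exact hne rfl
    obtain ⟨h3, -⟩ := xT_ind hD hs (top_lt hD) hst hv
    rw [Subgroup.mem_bot, h3, xT_zero]
  · rintro _ ⟨s, hs, hL, rfl⟩
    exact path_long hD H R hs hL
  · rintro _ ⟨s, hs, hL, rfl⟩ hne a ha ha1 b hb hb1
    refine lev_pair hD H R hs hL ?_ ha ha1 hb hb1
    rintro rfl
    exact hne rfl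

theorem XT_ne_top : XT D F (top D) ≠ ⊤ := by
  intro h
  have h1 : xT hD 0 (1 : F) ∈ XT D F (top D) := by rw [h]; exact Subgroup.mem_top _
  obtain ⟨t, ht⟩ := (mem_XT hD).1 h1
  have h0 : (0 : ℕ) ≠ top D := by
    intro h0
    have h2 := car_zero hD
    have h3 := car_top hD
    rw [h0, h3] at h2
    norm_num at h2
  exact one_ne_zero (xT_ind hD (zero_lt hD) (top_lt hD) h0 ht).1

end main

end Cfsg.Agent.H274.Rg
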