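import Cfsg.Agent.H274.Rg.TabS
import Cfsg.Agent.H274.Rg.TabE8

/-!
# Long root groups of the Chevalley groups (S5714)

`lrg_chev` : the subgroup of the highest root in `G2`, `F4`, `E6`, `E7`, `E8` satisfies `LRG X 3`.
-/

set_option autoImplicit false

namespace Cfsg.Agent.H274.Rg

open Cfsg Cfsg.Lie Cfsg.Agent.ChevalleyStructure Cfsg.Agent.H86.Lev Cfsg.Agent.H141.Rg

universe u

theorem exists_tab {D : ChevalleyDatum} (h : D ∈ [chevG2, chevF4, chevE6, chevE7, chevE8]) :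
    ∃ isL : ℕ → Bool, HiP D isL ∧ HiR D isL := by
  simp only [List.mem_cons, List.not_mem_nil, or_false] at h
  rcases h with rfl | rfl | rfl | rfl | rfl
  · exact ⟨_, hpG2, hiRG2⟩
  · exact ⟨_, hpF4, hiRF4⟩
  · exact ⟨_, hpE6, hiRE6⟩
  · exact ⟨_, hpE7, hiRE7⟩
  · exact ⟨_, hpE8, hiRE8⟩

theorem inList {D : ChevalleyDatum} (h : D ∈ [chevG2, chevF4, chevE6, chevE7, chevE8]) :
    D ∈ [chevG2, chevB2, chevD4, chevF4, chevE6, chevE7, chevE8] := by
  simp only [List.mem_cons, List.not_mem_nil, or_false] at h ⊢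
  tauto

/-- The highest root subgroup. -/
theorem lrg_top {D : ChevalleyDatum} (h : D ∈ [chevG2, chevF4, chevE6, chevE7, chevE8]) (F : Type u) [Field F] [Finite F] :
    Nat.card (XT D F (D.nroots - 1)) = Nat.card F ∧ XT D F (D.nroots - 1) ≠ ⊤ ∧ LRG (XT D F (D.nroots - 1)) 3 := by
  obtain ⟨isL, H, R⟩ := exists_tab h
  have hD := inList h
  exact ⟨card_XT hD (Cfsg.Agent.H86.Par.top_lt hD), XT_ne_top hD, lrg_of_tab hD H R⟩

theorem lrg_chev : ∃ c : ℕ, ∀ D ∈ [Lie.chevG2, Lie.chevF4, Lie.chevE6, Lie.chevE7, Lie.chevE8], ∀ (F : Type) [Field F] [Fintype F],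
    ∃ X : Subgroup ↥(D.group F), Nat.card X = Fintype.card F ∧ X ≠ ⊤ ∧ LRG X c := by
  refine ⟨3, fun D hD F _ _ => ?_⟩
  obtain ⟨h1, h2, h3⟩ := lrg_top hD F
  exact ⟨_, by rw [h1, Nat.card_eq_fintype_card], h2, h3⟩

end Cfsg.Agent.H274.Rg
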