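import Cfsg.Agent.H274.Rg.Chev
import Cfsg.Agent.H86.ParTabS
import Cfsg.Agent.H86.ParTabE7
import Cfsg.Agent.H86.ParTabE8

/-!
# Long root groups of the Chevalley groups (S5714): tables

`lrg_chev` : the long root groups of `G2`, `F4`, `E6`, `E7`, `E8`.
-/

set_option autoImplicit false
set_option maxHeartbeats 0
set_option maxRecDepth 100000

namespace Cfsg.Agent.H274.Rg

open Cfsg.Lie Cfsg.Agent.ChevalleyStructure Cfsg.Agent.ChevalleyStructure.RootCombGood Cfsg.Agent.H86.Lev Cfsg.Agent.H141.Rg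

/-- the check of `HiR.one` -/
def chkOne (D : ChevalleyDatum) (isL : ℕ → Bool) (l : List (ℕ × ℕ × ℤ)) (s : ℕ) : Bool :=
  !(isL s) || (!(decide (car D (D.nroots - 1) s = 1)) || match l.find? (fun p => p.1 == s) with
    | some p => (p.2.2 == 1 || p.2.2 == -1) && (Nat.blt p.2.1 D.nroots && (s != p.2.1 && (s != D.neg p.2.1 &&
        decide (D.commTerms p.2.1 s = [(D.nroots - 1, p.2.2, 1, 1)]))))
    | none => false)

/-- the check of `HiR.zero` -/
def chkZero (D : ChevalleyDatum) (isL : ℕ → Bool) (l : List (ℕ × ℕ × ℕ)) (s : ℕ) : Bool :=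
  !(isL s) || (!(decide (car D (D.nroots - 1) s = 0)) || match l.find? (fun p => p.1 == s) with
    | some p => Nat.blt p.2.1 D.nroots && (Nat.blt p.2.2 D.nroots && (isL p.2.1 && (isL p.2.2 &&
        (decide (car D (D.nroots - 1) p.2.1 = 1) && (decide (car D s p.2.1 = 1) &&
        (decide (car D (D.nroots - 1) p.2.2 = -1) && decide (0 ≤ car D s p.2.2)))))))
    | none => false)

/-- soundness of the checks -/
theorem hiR_of {D : ChevalleyDatum} {isL : ℕ → Bool} (l : List (ℕ × ℕ × ℤ)) (l' : List (ℕ × ℕ × ℕ))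
    (h : (List.range D.nroots).all (chkOne D isL l) = true) (h' : (List.range D.nroots).all (chkZero D isL l') = true)
    (d : ℕ) (hd : d < D.nroots) (hL : isL d = true) (hc : car D (D.nroots - 1) d = -1) : HiR D isL where
  one := by
    intro s hs hsL hs1
    have h1 := List.all_eq_true.1 h s (List.mem_range.2 hs)
    unfold chkOne at h1
    rw [hsL, decide_eq_true hs1] at h1
    simp only [Bool.not_true, Bool.false_or] at h1
    split at h1
    · rename_i p hp
      simp only [Bool.and_eq_true, Bool.or_eq_true, beq_iff_eq, bne_iff_ne, Nat.blt_eq, decide_eq_true_eq] at h1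
      exact ⟨p.2.1, p.2.2, h1.1, h1.2.1, h1.2.2.1, h1.2.2.2.1, h1.2.2.2.2⟩
    · exact absurd h1 (by simp)
  zero := by
    intro s hs hsL hs1
    have h1 := List.all_eq_true.1 h' s (List.mem_range.2 hs)
    unfold chkZero at h1
    rw [hsL, decide_eq_true hs1] at h1
    simp only [Bool.not_true, Bool.false_or] at h1
    split at h1
    · rename_i p hp
      simp only [Bool.and_eq_true, Nat.blt_eq, decide_eq_true_eq] at h1
      obtain ⟨a1, a2, a3, a4, a5, a6, a7, a8⟩ := h1
      exact ⟨⟨p.2.1, a1, a3, a5, a6⟩, ⟨p.2.2, a2, a4, a7, a8⟩⟩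
    · exact absurd h1 (by simp)
  ex := ⟨d, hd, hL, hc⟩

end Cfsg.Agent.H274.Rg
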